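import Cfsg.Agent.H1.GL2Cusp

/-!
# The irreducible characters of `SL₂`
-/

set_option autoImplicit false
set_option linter.unusedSectionVars false

namespace Cfsg.Agent.H8Y

open Cfsg.Agent.H1

open Cfsg Module Cfsg.Agent.H2 Matrix
open scoped ComplexConjugate MatrixGroups

variable {F : Type*} [Field F] [Fintype F] [DecidableEq F]

/-- the inclusion of `SL₂` in `GL₂` -/
abbrev sl2gl : SL(2, F) →* GL (Fin 2) F := Matrix.SpecialLinearGroup.toGL

/-- restriction to `SL₂` -/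
def resSL (f : GL (Fin 2) F → ℂ) : SL(2, F) → ℂ := fun g => f (sl2gl g)

theorem resSL_apply (f : GL (Fin 2) F → ℂ) (g : SL(2, F)) : resSL f g = f (sl2gl g) := rfl

theorem resSL_one (f : GL (Fin 2) F → ℂ) : resSL f 1 = f 1 := by simp [resSL]

@[simp] theorem coe_sl2gl (g : SL(2, F)) : (sl2gl g).1 = g.1 := rfl

theorem det_sl2gl (g : SL(2, F)) : (sl2gl g).1.det = 1 := g.2

theorem IsCharacter.resSL {f : GL (Fin 2) F → ℂ} (h : IsCharacter _ f) :
    IsCharacter _ (resSL f) := IsCharacter.comp h sl2gl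

theorem resSL_lin (γ : MulChar F ℂ) : resSL (lin γ) = fun _ => 1 := by
  ext g; simp [resSL, lin]

theorem resSL_mul_lin (f : GL (Fin 2) F → ℂ) (γ : MulChar F ℂ) : resSL (f * lin γ) = resSL f := by
  ext g; simp [resSL, lin]

theorem card_SL2' : (Nat.card SL(2, F) : ℂ) = Fintype.card F * ((Fintype.card F : ℂ) ^ 2 - 1) := by
  rw [card_SL2, Nat.card_eq_fintype_card]
  have hq := Fintype.one_lt_card (α := F)
  rw [Nat.cast_mul, Nat.cast_sub (Nat.one_le_pow _ _ (by omega))]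
  simp

theorem inner_resSL (a b : GL (Fin 2) F → ℂ) :
    classInner (resSL a) (resSL b) = ∑ γ : MulChar F ℂ, classInner (a * lin γ) b := by
  simp only [classInner, ← Finset.mul_sum]
  rw [Finset.sum_comm]
  have : ∀ g : GL (Fin 2) F, ∑ γ : MulChar F ℂ, (a * lin γ) g * conj (b g) =
      if g.1.det = 1 then ((Fintype.card F : ℂ) - 1) * (a g * conj (b g)) else 0 := by
    intro g
    simp only [Pi.mul_apply, lin, mul_assoc, ← Finset.mul_sum, ← Finset.sum_mul, sum_mulChar_apply]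
    split_ifs
    · ring
    · simp
  simp only [this]
  rw [← Finset.sum_filter, ← Finset.mul_sum]
  have e : ∑ g : SL(2, F), resSL a g * conj (resSL b g) =
      ∑ g ∈ Finset.univ.filter (fun g : GL (Fin 2) F => g.1.det = 1), a g * conj (b g) := by
    refine Finset.sum_bij (fun g _ => sl2gl g) (by simp)
      (fun a _ b _ h => Matrix.SpecialLinearGroup.toGL_injective h) ?_ (fun _ _ => rfl)
    intro g hg
    exact ⟨toSL g.1 (Finset.mem_filter.mp hg).2, Finset.mem_univ _, Units.ext rfl⟩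
  rw [e, card_SL2', card_GL2']
  have h1 := card_sub_one_ne_zero (K := F)
  have h2 := card_field_ne_zero (K := F)
  have h4 := card_sq_sub_one_ne_zero (F := F)
  have : (Fintype.card F : ℂ) ^ 2 - Fintype.card F = Fintype.card F * (Fintype.card F - 1) := by ring
  rw [this]
  field_simp

theorem exists_sl_mul_diag (g : GL (Fin 2) F) :
    ∃ (h : SL(2, F)) (d : Fˣ), g = sl2gl h * upEl d 1 0 := by
  have hd := g.det_ne_zero
  refine ⟨toSL (g.1 * !![g.1.det⁻¹, 0; 0, 1]) (by simp [det_fin_two_of, hd]),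
    Units.mk0 _ hd, Units.ext ?_⟩
  simp only [Units.val_mul, coe_sl2gl, coe_upEl]
  change g.1 = g.1 * _ * _
  rw [mul_assoc]
  have : !![g.1.det⁻¹, 0; 0, 1] * !![((Units.mk0 _ hd : Fˣ) : F), 0; 0, ((1 : Fˣ) : F)] = 1 := by
    apply m2_ext <;> simp [hd]
  rw [this, mul_one]

theorem exists_diag_mul_sl (g : GL (Fin 2) F) :
    ∃ (h : SL(2, F)) (d : Fˣ), g = upEl d 1 0 * sl2gl h := by
  have hd := g.det_ne_zero
  refine ⟨toSL (!![g.1.det⁻¹, 0; 0, 1] * g.1) (by rw [det_mul]; simp [det_fin_two_of, hd]),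
    Units.mk0 _ hd, Units.ext ?_⟩
  simp only [Units.val_mul, coe_sl2gl, coe_upEl]
  change g.1 = _ * (_ * g.1)
  rw [← mul_assoc]
  have : !![((Units.mk0 _ hd : Fˣ) : F), 0; 0, ((1 : Fˣ) : F)] * !![g.1.det⁻¹, 0; 0, 1] = 1 := by
    apply m2_ext <;> simp [hd]
  rw [this, one_mul]

/-- the principal series of `SL₂` is the restriction of that of `GL₂` -/
theorem indFun_SL_eq (α : MulChar F ℂ) :
    indFun ((upperTriangularGL 2 F).comap Matrix.SpecialLinearGroup.toGL)
      (fun b => α (((b : SL(2, F)) : Matrix (Fin 2) (Fin 2) F) 0 0)) = resSL (ps α 1) := by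
  ext g
  have := indFun_comap (sl2gl (F := F)) (upperTriangularGL 2 F) (fun g => by
    obtain ⟨h, d, e⟩ := exists_sl_mul_diag g
    exact ⟨h, _, by simp [mem_upper_iff], e⟩) (borelHom α 1)
    (IsCharacter.isClassFunction (isCharacter_hom _)) g
  refine Eq.trans ?_ this
  congr 1
  ext b
  have hb := (upper_diag_ne_zero ((mem_upper_iff _).mp b.2)).2
  simp only [borelHom, MonoidHom.coe_mk, OneHom.coe_mk]
  rw [mulChar_one_apply hb, mul_one]
  rfl

theorem resSL_ps (α β : MulChar F ℂ) : resSL (ps α β) = resSL (ps (α * β⁻¹) 1) := by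
  rw [← resSL_mul_lin _ β⁻¹, ps_mul_lin, mul_inv_cancel]

open Classical in
theorem inner_resSL_ps (α β : MulChar F ℂ) :
    classInner (resSL (ps α 1)) (resSL (ps β 1)) =
      (if α = β then 1 else 0) + (if α = β⁻¹ then 1 else 0) := by
  rw [inner_resSL]
  simp only [ps_mul_lin, inner_ps_ps, one_mul, Finset.sum_add_distrib]
  congr 1
  · rw [Finset.sum_eq_single 1]
    · simp
    · intro b _ hb; simp [hb]
    · simp
  · rw [Finset.sum_eq_single β]
    · simp [mul_eq_one_iff_eq_inv]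
    · intro b _ hb; simp [hb]
    · simp

open Classical in
theorem inner_resSL_ps_one (α : MulChar F ℂ) :
    classInner (resSL (ps α 1)) (fun _ => 1) = if α = 1 then 1 else 0 := by
  rw [← resSL_lin 1, inner_resSL]
  simp only [ps_mul_lin, inner_ps_lin, one_mul]
  rw [Finset.sum_eq_single 1]
  · simp
  · intro b _ hb; simp [hb]
  · simp

theorem isIrr_resSL_ps {α : MulChar F ℂ} (h : α ^ 2 ≠ 1) : IsIrrCharacter _ (resSL (ps α 1)) := by
  apply IsCharacter.isIrr (IsCharacter.resSL (isCharacter_ps _ _))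
  rw [inner_resSL_ps, if_pos rfl, if_neg, add_zero]
  intro e
  apply h
  rw [sq, mul_eq_one_iff_eq_inv]; exact e

theorem inner_resSL_ps_self_of_sq {α : MulChar F ℂ} (h : α ^ 2 = 1) :
    classInner (resSL (ps α 1)) (resSL (ps α 1)) = 2 := by
  rw [inner_resSL_ps, if_pos rfl, if_pos]
  · norm_num
  · rw [← mul_eq_one_iff_eq_inv, ← sq]; exact h

theorem resSL_st (γ : MulChar F ℂ) : resSL (st γ) = resSL (ps 1 1) - fun _ => 1 := by
  have : resSL (st γ) = resSL (ps γ γ) - resSL (lin γ) := rfl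
  rw [this, resSL_ps, resSL_lin, mul_inv_cancel]

theorem isIrr_resSL_st (γ : MulChar F ℂ) : IsIrrCharacter _ (resSL (st γ)) := by
  rw [resSL_st]
  exact (IsCharacter.isIrr_sub_of_norm_two (IsCharacter.resSL (isCharacter_ps _ _))
    (inner_resSL_ps_self_of_sq (by simp)) isIrrCharacter_one
    (by rw [inner_resSL_ps_one]; simp)).1

/-- conjugation of `SL₂` by an element of `GL₂` -/
noncomputable def conjSL (x : GL (Fin 2) F) : SL(2, F) ≃* SL(2, F) where
  toFun h := ⟨(x⁻¹ * sl2gl h * x).1, by simp [mul_comm (det x.1)⁻¹, x.det_ne_zero]⟩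
  invFun h := ⟨(x * sl2gl h * x⁻¹).1, by simp [x.det_ne_zero]⟩
  left_inv h := by
    apply Matrix.SpecialLinearGroup.toGL_injective
    apply Units.ext
    change (x * (x⁻¹ * sl2gl h * x) * x⁻¹).1 = (sl2gl h).1
    congr 1; group
  right_inv h := by
    apply Matrix.SpecialLinearGroup.toGL_injective
    apply Units.ext
    change (x⁻¹ * (x * sl2gl h * x⁻¹) * x).1 = (sl2gl h).1
    congr 1; group
  map_mul' a b := by
    apply Matrix.SpecialLinearGroup.toGL_injective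
    apply Units.ext
    change (x⁻¹ * sl2gl (a * b) * x).1 = ((x⁻¹ * sl2gl a * x) * (x⁻¹ * sl2gl b * x)).1
    congr 1; rw [map_mul]; group

theorem sl2gl_conjSL (x : GL (Fin 2) F) (h : SL(2, F)) :
    sl2gl (conjSL x h) = x⁻¹ * sl2gl h * x := Units.ext rfl

theorem conjSL_mul_sl (x : GL (Fin 2) F) (k h : SL(2, F)) :
    conjSL (x * sl2gl k) h = k⁻¹ * conjSL x h * k := by
  apply Matrix.SpecialLinearGroup.toGL_injective
  change sl2gl _ = sl2gl _
  simp only [sl2gl_conjSL, map_mul, map_inv]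
  group

theorem upEl_inv (d : Fˣ) : (upEl d 1 0)⁻¹ = upEl d⁻¹ 1 (0 : F) := by
  rw [inv_eq_iff_mul_eq_one]
  apply Units.ext
  apply m2_ext <;> simp [m2_mul_apply]

theorem conjSL_uSL (d : Fˣ) (b : F) : conjSL (upEl d 1 0) (uSL b) = uSL ((d : F)⁻¹ * b) := by
  apply Matrix.SpecialLinearGroup.toGL_injective
  change sl2gl _ = sl2gl _
  rw [sl2gl_conjSL, upEl_inv]
  apply Units.ext
  apply m2_ext <;> simp [m2_mul_apply]

/-- `χ` is one of the two halves of the restriction of `ψ` -/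
def IsHalf (ψ : GL (Fin 2) F → ℂ) (χ : SL(2, F) → ℂ) : Prop :=
  IsIrrCharacter _ χ ∧ ∃ χ' : SL(2, F) → ℂ, IsIrrCharacter _ χ' ∧ χ' ≠ χ ∧ resSL ψ = χ + χ' ∧
    ∃ d : Fˣ, ∀ g, χ' g = χ (conjSL (upEl d 1 0) g)

theorem isHalf_of_constituent {ψ : GL (Fin 2) F → ℂ} (hψ : IsIrrCharacter _ ψ)
    (h2 : classInner (resSL ψ) (resSL ψ) = 2) {χ : SL(2, F) → ℂ} (hχ : IsIrrCharacter _ χ)
    (h : classInner (resSL ψ) χ ≠ 0) : IsHalf ψ χ := by
  obtain ⟨h3, h4⟩ := IsCharacter.isIrr_sub_of_norm_two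
    (IsCharacter.resSL (IsIrrCharacter.isCharacter hψ)) h2 hχ h
  refine ⟨hχ, _, h3, h4, by simp, ?_⟩
  obtain ⟨x, hx⟩ := clifford_conj sl2gl Matrix.SpecialLinearGroup.toGL_injective conjSL
    sl2gl_conjSL hψ hχ h3 h (by
      change classInner (resSL ψ) _ ≠ 0
      have e : resSL ψ = χ + (resSL ψ - χ) := by simp
      nth_rewrite 1 [e]
      rw [classInner_add_left, IsIrrCharacter.classInner_self h3,
        IsIrrCharacter.classInner_of_ne hχ h3 h4.symm]
      simp)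
  obtain ⟨k, d, rfl⟩ := exists_diag_mul_sl x
  refine ⟨d, fun g => ?_⟩
  rw [hx]
  simp only [conjSL_mul_sl]
  have := IsCharacter.isClassFunction (IsIrrCharacter.isCharacter hχ) (conjSL (upEl d 1 0) g) k⁻¹
  rwa [inv_inv] at this

theorem exists_isHalf {ψ : GL (Fin 2) F → ℂ} (hψ : IsIrrCharacter _ ψ)
    (h2 : classInner (resSL ψ) (resSL ψ) = 2) :
    ∃ χ₁ χ₂, IsHalf ψ χ₁ ∧ IsHalf ψ χ₂ ∧ χ₁ ≠ χ₂ ∧ resSL ψ = χ₁ + χ₂ ∧
      ∀ χ, IsHalf ψ χ → χ = χ₁ ∨ χ = χ₂ := by
  obtain ⟨χ₁, χ₂, h₁, h₂, hne, e⟩ := IsCharacter.exists_of_norm_two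
    (IsCharacter.resSL (IsIrrCharacter.isCharacter hψ)) h2
  refine ⟨χ₁, χ₂, isHalf_of_constituent hψ h2 h₁ ?_, isHalf_of_constituent hψ h2 h₂ ?_, hne, e, ?_⟩
  · rw [e, classInner_add_left, IsIrrCharacter.classInner_self h₁,
      IsIrrCharacter.classInner_of_ne h₂ h₁ hne.symm]; simp
  · rw [e, classInner_add_left, IsIrrCharacter.classInner_self h₂,
      IsIrrCharacter.classInner_of_ne h₁ h₂ hne]; simp
  · rintro χ ⟨hχ, χ', hχ', hne', e', -⟩
    apply IsIrrCharacter.eq_or_eq_of_add h₁ h₂ hχ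
    rw [← e, e', classInner_add_left, IsIrrCharacter.classInner_self hχ,
      IsIrrCharacter.classInner_of_ne hχ' hχ hne']; simp

theorem IsHalf.add_eq {ψ : GL (Fin 2) F → ℂ} {χ₁ χ₂ : SL(2, F) → ℂ} (h₁ : IsHalf ψ χ₁)
    (h₂ : IsHalf ψ χ₂) (hne : χ₁ ≠ χ₂) : χ₁ + χ₂ = resSL ψ := by
  obtain ⟨a₁, χ', hχ', hne', e', -⟩ := h₁
  obtain ⟨a₂, χ'', hχ'', hne'', e'', -⟩ := h₂
  rcases IsIrrCharacter.eq_or_eq_of_add a₁ hχ' a₂ (by
    rw [← e', e'', classInner_add_left, IsIrrCharacter.classInner_self a₂,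
      IsIrrCharacter.classInner_of_ne hχ'' a₂ hne'']; simp) with h | h
  · exact absurd h.symm hne
  · rw [e', h]

theorem IsHalf.of_resSL_eq {ψ ψ' : GL (Fin 2) F → ℂ} {χ : SL(2, F) → ℂ} (h : IsHalf ψ χ)
    (e : resSL ψ = resSL ψ') : IsHalf ψ' χ := by
  unfold IsHalf at *
  rwa [← e]

/-- values of a half on elements whose class does not split -/
theorem IsHalf.apply {ψ : GL (Fin 2) F → ℂ} {χ : SL(2, F) → ℂ} (h : IsHalf ψ χ) (g : SL(2, F))
    (hg : IsScal g.1 ∨ g.1.trace ^ 2 ≠ 4) : χ g = ψ (sl2gl g) / 2 := by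
  obtain ⟨hχ, χ', hχ', hne, e, d, hd⟩ := h
  have h1 : χ' g = χ g := by
    rw [hd]
    apply IsClassFunction.of_isConj (IsCharacter.isClassFunction (IsIrrCharacter.isCharacter hχ))
    have hc : IsConj (sl2gl (conjSL (upEl d 1 0) g)) (sl2gl g) := by
      rw [sl2gl_conjSL]
      exact isConj_iff.mpr ⟨upEl d 1 0, by group⟩
    obtain ⟨c, hc, h'⟩ := isConj_GL_iff.mp hc
    by_cases hs : IsScal g.1
    · have := isScal_of_intertwine' hc h' hs
      rw [SL_ext this]
      exact IsConj.refl _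
    · have hs' : ¬ IsScal (conjSL (upEl d 1 0) g).1 := fun h =>
        hs (by have := isScal_of_intertwine hc h' h; rw [coe_sl2gl, coe_sl2gl] at this; rwa [this])
      exact (isConj_SL_of hs hs' (trace_eq_of_intertwine hc h').symm
        (Or.inr (hg.resolve_left hs))).symm
  have := congrFun e g
  rw [Pi.add_apply, h1, resSL_apply] at this
  rw [this]; ring

theorem IsHalf.one {ψ : GL (Fin 2) F → ℂ} {χ : SL(2, F) → ℂ} (h : IsHalf ψ χ) :
    χ 1 = ψ 1 / 2 := by
  rw [h.apply 1 (Or.inl (by simp [IsScal])), map_one]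

/-- the quadratic character with complex values -/
noncomputable def eta (F : Type*) [Field F] [Fintype F] [DecidableEq F] : MulChar F ℂ :=
  (quadraticChar F).ringHomComp (Int.castRingHom ℂ)

theorem eta_apply (a : F) : eta F a = (quadraticChar F a : ℂ) := rfl

theorem eta_isQuadratic : (eta F).IsQuadratic := (quadraticChar_isQuadratic F).comp _

theorem eta_sq : eta F ^ 2 = 1 := eta_isQuadratic.sq_eq_one

theorem eta_ne_one (h : (2 : F) ≠ 0) : eta F ≠ 1 :=
  (MulChar.ringHomComp_ne_one_iff (RingHom.injective_int _)).mpr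
    (quadraticChar_ne_one (ringChar_ne_two_of h))

theorem eta_of_isSquare {a : F} (h0 : a ≠ 0) (h : IsSquare a) : eta F a = 1 := by
  rw [eta_apply, (quadraticChar_one_iff_isSquare h0).mpr h]; simp

theorem eta_of_not_isSquare {a : F} (h : ¬ IsSquare a) : eta F a = -1 := by
  rw [eta_apply, quadraticChar_neg_one_iff_not_isSquare.mpr h]; simp

theorem eta_neg_one (h : (2 : F) ≠ 0) : eta F (-1) = (-1) ^ ((Fintype.card F - 1) / 2) := by
  have hodd := FiniteField.odd_card_of_char_ne_two (ringChar_ne_two_of h)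
  rw [eta_apply, quadraticChar_neg_one (ringChar_ne_two_of h), ZMod.χ₄_eq_neg_one_pow hodd,
    show (Fintype.card F - 1) / 2 = Fintype.card F / 2 by omega]
  simp

theorem eq_eta {α : MulChar F ℂ} (h2 : (2 : F) ≠ 0) (h : α ^ 2 = 1) (h1 : α ≠ 1) : α = eta F :=
  sq_eq_one_of_order_two h h1 eta_sq (eta_ne_one h2)

/-- the unipotent subgroup as a homomorphism -/
def uHom : Multiplicative F →* SL(2, F) where
  toFun b := uSL b.toAdd
  map_one' := by simp
  map_mul' a b := by simp [uSL_add]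

theorem sum_addChar_conj (ψ : AddChar F ℂ) (hψ : ψ.IsPrimitive) : ∑ b : F, conj (ψ b) = 0 := by
  rw [← map_sum, AddChar.sum_eq_zero_iff_ne_zero.mpr, map_zero]
  have := hψ (a := 1) one_ne_zero
  rwa [AddChar.mulShift_one] at this

/-- values of a half on the unipotent elements -/
theorem IsHalf.unip {ψ : GL (Fin 2) F → ℂ} {χ : SL(2, F) → ℂ} (h : IsHalf ψ χ) (h2 : (2 : F) ≠ 0)
    (e : ℂ) (h1 : ψ 1 = Fintype.card F + e) (hu : ∀ b, b ≠ 0 → ψ (sl2gl (uSL b)) = e) :
    ∃ s : ℂ, s ^ 2 = eta F (-1) * Fintype.card F ∧ ∀ b, b ≠ 0 → χ (uSL b) = (e + eta F b * s) / 2 := by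
  have hone := h.one
  obtain ⟨hχ, χ', hχ', hne, he, d, hd⟩ := h
  have hcl := IsCharacter.isClassFunction (IsIrrCharacter.isCharacter hχ)
  have hone' : χ' 1 = χ 1 := by rw [hd, map_one]
  have hsum : ∀ b, b ≠ 0 → χ (uSL b) + χ' (uSL b) = e := fun b hb => by
    rw [← hu b hb]; exact (congrFun he _).symm
  set ψ₀ := AddChar.FiniteField.primitiveChar_to_Complex F
  have hψ₀ : ψ₀.IsPrimitive := AddChar.FiniteField.primitiveChar_to_Complex_isPrimitive F
  have hq := card_field_ne_zero (K := F)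
  have hin : ∀ ξ : SL(2, F) → ℂ, IsIrrCharacter _ ξ →
      ∃ m : ℕ, ∑ b : F, ξ (uSL b) * conj (ψ₀ b) = Fintype.card F * m := by
    intro ξ hξ
    obtain ⟨m, hm⟩ := IsCharacter.classInner_nat
      (IsCharacter.comp (IsIrrCharacter.isCharacter hξ) uHom) (isCharacter_hom ψ₀.toMonoidHom)
    refine ⟨m, ?_⟩
    rw [← hm, classInner, Nat.card_eq_fintype_card, Fintype.card_multiplicative,
      mul_inv_cancel_left₀ hq]
    exact Fintype.sum_equiv Multiplicative.ofAdd _ _ (fun _ => rfl)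
  obtain ⟨m, hm⟩ := hin χ hχ
  obtain ⟨m', hm'⟩ := hin χ' hχ'
  have hmm : m + m' = 1 := by
    have : (Fintype.card F : ℂ) * (m + m') = Fintype.card F * 1 := by
      rw [mul_add, ← hm, ← hm', ← Finset.sum_add_distrib]
      have : ∀ b : F, χ (uSL b) * conj (ψ₀ b) + χ' (uSL b) * conj (ψ₀ b) =
          e * conj (ψ₀ b) + if b = 0 then (Fintype.card F : ℂ) else 0 := by
        intro b
        split_ifs with hb
        · subst hb
          simp only [uSL_zero, hone', hone, h1, AddChar.map_zero_eq_one, map_one]; ring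
        · rw [← add_mul, hsum b hb, add_zero]
      simp only [this, Finset.sum_add_distrib, ← Finset.mul_sum, sum_addChar_conj ψ₀ hψ₀]
      simp
    exact_mod_cast mul_left_cancel₀ hq this
  -- the difference function
  have hsq : ∀ a b : F, a ≠ 0 → b ≠ 0 → IsSquare (a * b) → χ (uSL a) = χ (uSL b) :=
    fun a b ha hb hs => IsClassFunction.of_isConj hcl ((isConj_uSL_iff ha hb).mpr hs)
  have hd' : ∀ b, χ' (uSL b) = χ (uSL ((d : F)⁻¹ * b)) := fun b => by rw [hd, conjSL_uSL]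
  have hdns : ¬ IsSquare ((d : F)⁻¹) := by
    intro hs
    have : ∀ b, χ' (uSL b) = χ (uSL b) := by
      intro b
      by_cases hb : b = 0
      · subst hb; simp [hone']
      · rw [hd']
        apply hsq _ _ (by simp [hb]) hb
        rw [mul_assoc]
        exact hs.mul ⟨b, rfl⟩
    simp only [this, hm] at hm'
    have : m = m' := by exact_mod_cast mul_left_cancel₀ hq hm'
    omega
  have hval : ∀ b, b ≠ 0 → χ (uSL b) = (e + eta F b * (2 * χ (uSL 1) - e)) / 2 := by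
    intro b hb
    by_cases hs : IsSquare b
    · rw [eta_of_isSquare hb hs, hsq b 1 hb one_ne_zero (by simpa using hs)]; ring
    · rw [eta_of_not_isSquare hs, hsq b ((d : F)⁻¹ * 1) hb (by simp)
        (by simpa using isSquare_mul_of_not hs hdns), ← hd']
      linear_combination hsum 1 one_ne_zero
  refine ⟨2 * χ (uSL 1) - e, ?_, hval⟩
  set s := 2 * χ (uSL 1) - e
  have hG := gaussSum_sq (eta_ne_one h2) eta_isQuadratic (ψ := ψ₀⁻¹) (by
    intro a ha
    have := hψ₀ (a := -a) (neg_ne_zero.mpr ha)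
    rwa [AddChar.inv_mulShift, AddChar.mulShift_mulShift, neg_one_mul])
  have hdiff : s * gaussSum (eta F) ψ₀⁻¹ = Fintype.card F * (m - m') := by
    rw [mul_sub, ← hm, ← hm', ← Finset.sum_sub_distrib, gaussSum, Finset.mul_sum]
    refine Finset.sum_congr rfl (fun b _ => ?_)
    by_cases hb : b = 0
    · subst hb; simp [hone', MulChar.map_zero]
    · rw [← sub_mul, AddChar.inv_apply, AddChar.map_neg_eq_conj, ← mul_assoc]
      congr 1
      linear_combination hsum b hb - 2 * hval b hb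
  have hmsq : ((m : ℂ) - m') ^ 2 = 1 := by
    rcases (by omega : (m = 1 ∧ m' = 0) ∨ (m = 0 ∧ m' = 1)) with ⟨rfl, rfl⟩ | ⟨rfl, rfl⟩ <;> simp
  have heta : eta F (-1) ^ 2 = 1 := by rw [← map_pow]; simp
  have h3 : s ^ 2 * (eta F (-1) * Fintype.card F) = Fintype.card F ^ 2 := by
    rw [← hG, ← mul_pow, hdiff, mul_pow, hmsq, mul_one]
  apply mul_right_cancel₀ hq
  linear_combination (eta F (-1)) * h3 - (s ^ 2 * Fintype.card F) * heta

variable {E : Type*} [Field E] [Fintype E] [DecidableEq E] [Algebra F E] (Q : QuadEmb F E)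

open Classical in
theorem sum_lift_ite (θ θ' : MulChar E ℂ) :
    ∑ γ : MulChar F ℂ, (if θ * Q.lift γ = θ' then (1 : ℂ) else 0) =
      if θ ^ (Fintype.card F - 1) = θ' ^ (Fintype.card F - 1) then 1 else 0 := by
  have e : θ ^ (Fintype.card F - 1) = θ' ^ (Fintype.card F - 1) ↔ ∃ γ, Q.lift γ = θ⁻¹ * θ' := by
    rw [Q.exists_lift_iff, mul_pow, inv_pow, inv_mul_eq_one]
  simp only [e, ← eq_inv_mul_iff_mul_eq]
  split_ifs with h
  · obtain ⟨γ, hγ⟩ := h
    simp [← hγ, Q.lift_injective.eq_iff]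
  · push Not at h
    simp [h]

include Q in
theorem pow_card_pow_sub_one (θ : MulChar E ℂ) :
    (θ ^ Fintype.card F) ^ (Fintype.card F - 1) = (θ ^ (Fintype.card F - 1))⁻¹ := by
  have hq := Fintype.one_lt_card (α := F)
  have := Q.char_pow_card_pow_card θ
  rw [eq_inv_iff_mul_eq_one, ← mul_pow, ← pow_succ, ← pow_mul]
  have h2 : (Fintype.card F + 1) * (Fintype.card F - 1) = Fintype.card (MulChar E ℂ) := by
    rw [card_mulChar, Q.card_E, ← Nat.sq_sub_sq]
  rw [h2, pow_card_eq_one]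

open Classical in
theorem inner_resSL_cusp (θ θ' : MulChar E ℂ) :
    classInner (resSL (cusp Q θ)) (resSL (cusp Q θ')) =
      (if θ ^ (Fintype.card F - 1) = θ' ^ (Fintype.card F - 1) then 1 else 0) +
      (if θ ^ (Fintype.card F - 1) = (θ' ^ (Fintype.card F - 1))⁻¹ then 1 else 0) := by
  rw [inner_resSL]
  simp only [cusp_mul_lin, inner_cusp_cusp, Finset.sum_add_distrib, sum_lift_ite,
    pow_card_pow_sub_one Q]

theorem resSL_cusp_eq {θ θ' : MulChar E ℂ}
    (h : θ ^ (Fintype.card F - 1) = θ' ^ (Fintype.card F - 1)) :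
    resSL (cusp Q θ) = resSL (cusp Q θ') := by
  obtain ⟨γ, hγ⟩ := (Q.exists_lift_iff (θ⁻¹ * θ')).mpr (by
    rw [mul_pow, inv_pow, inv_mul_eq_one, h])
  rw [← resSL_mul_lin _ γ, cusp_mul_lin, hγ, mul_inv_cancel_left]

theorem isIrr_resSL_cusp {θ : MulChar E ℂ} (h : (θ ^ (Fintype.card F - 1)) ^ 2 ≠ 1) :
    IsIrrCharacter _ (resSL (cusp Q θ)) := by
  apply IsCharacter.isIrr (IsCharacter.resSL (IsIrrCharacter.isCharacter (isIrr_cusp Q
    (fun e => h (by rw [e, one_pow])))))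
  rw [inner_resSL_cusp, if_pos rfl, if_neg, add_zero]
  intro e
  apply h
  rw [sq, mul_eq_one_iff_eq_inv]; exact e

theorem inner_resSL_cusp_self_of_sq {θ : MulChar E ℂ} (h : (θ ^ (Fintype.card F - 1)) ^ 2 = 1) :
    classInner (resSL (cusp Q θ)) (resSL (cusp Q θ)) = 2 := by
  rw [inner_resSL_cusp, if_pos rfl, if_pos]
  · norm_num
  · rw [← mul_eq_one_iff_eq_inv, ← sq]; exact h

/-- the irreducible characters of `SL₂` -/
theorem irr_SL2_cases {χ : SL(2, F) → ℂ} (hχ : IsIrrCharacter _ χ) :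
    (χ = fun _ => 1) ∨ χ = resSL (st 1) ∨ (∃ α, α ^ 2 ≠ 1 ∧ χ = resSL (ps α 1)) ∨
      (∃ θ, (θ ^ (Fintype.card F - 1)) ^ 2 ≠ 1 ∧ χ = resSL (cusp Q θ)) ∨
      ((2 : F) ≠ 0 ∧ IsHalf (ps (eta F) 1) χ) ∨
      ((2 : F) ≠ 0 ∧ ∃ θ, (θ ^ (Fintype.card F - 1)) ^ 2 = 1 ∧ θ ^ (Fintype.card F - 1) ≠ 1 ∧
        IsHalf (cusp Q θ) χ) := by
  obtain ⟨ψ, hψ, h⟩ := exists_irr_lying_over sl2gl Matrix.SpecialLinearGroup.toGL_injective hχ
  change classInner (resSL ψ) χ ≠ 0 at h
  have hq := Fintype.one_lt_card (α := F)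
  rcases irr_GL2_cases Q hψ with ⟨γ, rfl⟩ | ⟨γ, rfl⟩ | ⟨α, β, hab, rfl⟩ | ⟨θ, hθ, rfl⟩
  · rw [resSL_lin] at h
    exact Or.inl (IsIrrCharacter.eq_of_classInner_ne_zero isIrrCharacter_one hχ h).symm
  · refine Or.inr (Or.inl ?_)
    rw [resSL_st, ← resSL_st γ]
    exact (IsIrrCharacter.eq_of_classInner_ne_zero (isIrr_resSL_st γ) hχ h).symm
  · rw [resSL_ps] at h
    have h1 : α * β⁻¹ ≠ 1 := by rwa [Ne, mul_inv_eq_one]
    by_cases h2 : (α * β⁻¹) ^ 2 = 1
    · refine Or.inr (Or.inr (Or.inr (Or.inr (Or.inl ?_))))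
      have h3 : (2 : F) ≠ 0 := by
        intro h3
        have h4 := even_card_of_two_eq_zero h3
        have h5 : orderOf (α * β⁻¹) ∣ Fintype.card F - 1 := MulChar.orderOf_dvd_card_sub_one _ _
        rw [orderOf_eq_prime h2 h1] at h5
        rw [Nat.card_eq_fintype_card] at h4
        omega
      rw [eq_eta h3 h2 h1] at h
      exact ⟨h3, isHalf_of_constituent (isIrr_ps (eta_ne_one h3))
        (inner_resSL_ps_self_of_sq eta_sq) hχ h⟩
    · exact Or.inr (Or.inr (Or.inl ⟨_, h2,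
        (IsIrrCharacter.eq_of_classInner_ne_zero (isIrr_resSL_ps h2) hχ h).symm⟩))
  · by_cases h2 : (θ ^ (Fintype.card F - 1)) ^ 2 = 1
    · refine Or.inr (Or.inr (Or.inr (Or.inr (Or.inr ⟨?_, θ, h2, hθ,
        isHalf_of_constituent hψ (inner_resSL_cusp_self_of_sq Q h2) hχ h⟩))))
      intro h3
      have h4 := even_card_of_two_eq_zero h3
      have h5 : orderOf (θ ^ (Fintype.card F - 1)) ∣ Fintype.card E - 1 :=
        MulChar.orderOf_dvd_card_sub_one _ _
      rw [orderOf_eq_prime h2 hθ, Q.card_E] at h5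
      rw [Nat.card_eq_fintype_card] at h4
      have h6 : 2 ∣ Fintype.card F ^ 2 := Dvd.dvd.pow (Nat.dvd_of_mod_eq_zero h4) two_ne_zero
      have h7 : 0 < Fintype.card F ^ 2 := by positivity
      omega
    · exact Or.inr (Or.inr (Or.inr (Or.inl ⟨θ, h2,
        (IsIrrCharacter.eq_of_classInner_ne_zero (isIrr_resSL_cusp Q h2) hχ h).symm⟩)))

include Q in
theorem exists_theta_order_two (h2 : (2 : F) ≠ 0) :
    ∃ θ : MulChar E ℂ, (θ ^ (Fintype.card F - 1)) ^ 2 = 1 ∧ θ ^ (Fintype.card F - 1) ≠ 1 := by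
  obtain ⟨g, hg⟩ := IsCyclic.exists_ofOrder_eq_natCard (α := MulChar E ℂ)
  have hq := Fintype.one_lt_card (α := F)
  have hodd := odd_card_of_two_ne_zero h2
  rw [Nat.card_eq_fintype_card] at hodd
  rw [Nat.card_eq_fintype_card, card_mulChar, Q.card_E] at hg
  obtain ⟨k, hk⟩ : ∃ k, Fintype.card F = 2 * k + 3 := ⟨(Fintype.card F - 3) / 2, by omega⟩
  have e : Fintype.card F ^ 2 - 1 = (k + 2) * (Fintype.card F - 1) * 2 := by
    rw [hk]
    apply Nat.sub_eq_of_eq_add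
    rw [show 2 * k + 3 - 1 = 2 * k + 2 by omega]; ring
  refine ⟨g ^ (k + 2), ?_, ?_⟩
  · rw [← pow_mul, ← pow_mul, ← mul_assoc, ← e, ← hg, pow_orderOf_eq_one]
  · rw [← pow_mul]
    apply pow_ne_one_of_lt_orderOf
    · exact Nat.mul_ne_zero (by omega) (by omega)
    · rw [hg, e]
      have : 0 < (k + 2) * (Fintype.card F - 1) := Nat.mul_pos (by omega) (by omega)
      omega

end Cfsg.Agent.H8Y
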