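import Cfsg.Agent.H8.Y.SL2Chars
import Cfsg.Agent.H1.DegCount

/-!
# The irreducible characters of `SL₂` by degree
-/

set_option autoImplicit false
set_option linter.unusedSectionVars false

namespace Cfsg.Agent.H8Y

open Cfsg.Agent.H1

open Cfsg Module Cfsg.Agent.H2 Matrix
open scoped ComplexConjugate MatrixGroups

variable {F : Type*} [Field F] [Fintype F] [DecidableEq F]

theorem cast_half_add (hodd : Odd (Fintype.card F)) :
    (((Fintype.card F + 1) / 2 : ℕ) : ℂ) = ((Fintype.card F : ℂ) + 1) / 2 := by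
  obtain ⟨k, hk⟩ := hodd
  rw [hk, show (2 * k + 1 + 1) / 2 = k + 1 by omega]
  push_cast; ring

theorem cast_half_sub (hodd : Odd (Fintype.card F)) :
    (((Fintype.card F - 1) / 2 : ℕ) : ℂ) = ((Fintype.card F : ℂ) - 1) / 2 := by
  obtain ⟨k, hk⟩ := hodd
  rw [hk, show (2 * k + 1 - 1) / 2 = k by omega]
  push_cast; ring

theorem card_ne_nat {n : ℕ} (h : Fintype.card F ≠ n) : (Fintype.card F : ℂ) ≠ n := by
  exact_mod_cast h

theorem card_add_ne_zero (n : ℕ) : (Fintype.card F : ℂ) + n ≠ 0 := by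
  have := Fintype.card_pos (α := F)
  exact_mod_cast (by omega : Fintype.card F + n ≠ 0)

theorem three_le_card_of_two_ne_zero (h2 : (2 : F) ≠ 0) : 3 ≤ Fintype.card F := by
  have := odd_card_of_two_ne_zero h2
  rw [Nat.card_eq_fintype_card] at this
  have := Fintype.one_lt_card (α := F)
  omega

theorem diag_trace_det {g : SL(2, F)} (h1 : g.1 0 1 = 0) :
    (sl2gl g).1.trace = g.1 0 0 + g.1 1 1 ∧ (sl2gl g).1.det = g.1 0 0 * g.1 1 1 ∧
      g.1 0 0 * g.1 1 1 = 1 := by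
  have hd : g.1.det = g.1 0 0 * g.1 1 1 := by rw [det_fin_two, h1]; ring
  exact ⟨trace_fin_two _, hd, hd.symm.trans g.2⟩

theorem diag_ne {g : SL(2, F)} (h1 : g.1 0 1 = 0) (h : g.1 0 0 ^ 2 ≠ 1) : g.1 0 0 ≠ g.1 1 1 := by
  intro e
  apply h
  rw [sq]
  nth_rewrite 2 [e]
  exact (diag_trace_det h1).2.2

theorem diag_trace_sq_ne {g : SL(2, F)} (h1 : g.1 0 1 = 0) (h : g.1 0 0 ^ 2 ≠ 1) :
    g.1.trace ^ 2 ≠ 4 := by
  intro e
  apply diag_ne h1 h
  have h3 := (diag_trace_det h1).2.2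
  rw [trace_fin_two] at e
  have : (g.1 0 0 - g.1 1 1) ^ 2 = 0 := by linear_combination e - 4 * h3
  exact sub_eq_zero.mp (pow_eq_zero_iff two_ne_zero |>.mp this)

theorem trace_sq_ne_of_no_root (h2 : (2 : F) ≠ 0) {g : SL(2, F)}
    (h : ∀ x : F, x ^ 2 - g.1.trace * x + g.1.det ≠ 0) : g.1.trace ^ 2 ≠ 4 := by
  intro e
  apply h (g.1.trace / 2)
  rw [g.2]
  field_simp
  linear_combination -e

theorem jordan_trace_det {g : SL(2, F)} (h1 : g.1 1 0 = 0) (h2 : g.1 0 0 = g.1 1 1) :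
    (sl2gl g).1.trace = g.1 0 0 + g.1 0 0 ∧ (sl2gl g).1.det = g.1 0 0 * g.1 0 0 := by
  constructor
  · rw [coe_sl2gl, trace_fin_two, ← h2]
  · rw [coe_sl2gl, det_fin_two, ← h2, h1]; ring

theorem uSL_trace_det (b : F) :
    (sl2gl (uSL b)).1.trace = 1 + 1 ∧ (sl2gl (uSL b)).1.det = 1 * 1 := by
  constructor
  · simp [trace_fin_two]
  · simp

theorem not_isScal_uSL {b : F} (hb : b ≠ 0) : ¬ IsScal (sl2gl (uSL b)).1 := by
  simp [IsScal, hb]

theorem ps_uSL (α β : MulChar F ℂ) {b : F} (hb : b ≠ 0) : ps α β (sl2gl (uSL b)) = 1 := by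
  rw [ps_jordan _ _ (not_isScal_uSL hb) (uSL_trace_det b).1 (uSL_trace_det b).2]; simp

theorem st_uSL (α : MulChar F ℂ) {b : F} (hb : b ≠ 0) : st α (sl2gl (uSL b)) = 0 :=
  st_jordan _ (not_isScal_uSL hb) (uSL_trace_det b).1 (uSL_trace_det b).2

theorem IsHalf.ps_unip {χ : SL(2, F) → ℂ} (h : IsHalf (ps (eta F) 1) χ) (h2 : (2 : F) ≠ 0) :
    ∃ s : ℂ, s ^ 2 = eta F (-1) * Fintype.card F ∧
      ∀ b, b ≠ 0 → χ (uSL b) = (1 + eta F b * s) / 2 :=
  h.unip h2 1 (ps_one _ _) (fun _ hb => ps_uSL _ _ hb)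

variable {E : Type*} [Field E] [Fintype E] [DecidableEq E] [Algebra F E] (Q : QuadEmb F E)

theorem cusp_uSL (θ : MulChar E ℂ) {b : F} (hb : b ≠ 0) : cusp Q θ (sl2gl (uSL b)) = -1 := by
  rw [cusp_jordan _ _ (not_isScal_uSL hb) (uSL_trace_det b).1 (uSL_trace_det b).2]; simp

theorem IsHalf.cusp_unip {θ : MulChar E ℂ} {χ : SL(2, F) → ℂ} (h : IsHalf (cusp Q θ) χ)
    (h2 : (2 : F) ≠ 0) : ∃ s : ℂ, s ^ 2 = eta F (-1) * Fintype.card F ∧
      ∀ b, b ≠ 0 → χ (uSL b) = (-1 + eta F b * s) / 2 :=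
  h.unip h2 (-1) (by rw [cusp_one]; ring) (fun _ hb => cusp_uSL _ _ hb)

/-- the list of characters together with their degrees -/
theorem irr_SL2_cases_deg {χ : SL(2, F) → ℂ} (hχ : IsIrrCharacter _ χ) :
    (χ 1 = 1 ∧ χ = fun _ => 1) ∨ (χ 1 = Fintype.card F ∧ χ = resSL (st 1)) ∨
      (χ 1 = Fintype.card F + 1 ∧ ∃ α, α ^ 2 ≠ 1 ∧ χ = resSL (ps α 1)) ∨
      (χ 1 = Fintype.card F - 1 ∧
        ∃ θ, (θ ^ (Fintype.card F - 1)) ^ 2 ≠ 1 ∧ χ = resSL (cusp Q θ)) ∨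
      (χ 1 = (Fintype.card F + 1) / 2 ∧ (2 : F) ≠ 0 ∧ IsHalf (ps (eta F) 1) χ) ∨
      (χ 1 = (Fintype.card F - 1) / 2 ∧ (2 : F) ≠ 0 ∧
        ∃ θ, (θ ^ (Fintype.card F - 1)) ^ 2 = 1 ∧ θ ^ (Fintype.card F - 1) ≠ 1 ∧
        IsHalf (cusp Q θ) χ) := by
  rcases irr_SL2_cases Q hχ with rfl | rfl | ⟨α, h, rfl⟩ | ⟨θ, h, rfl⟩ | ⟨h2, h⟩ |
    ⟨h2, θ, h3, h4, h⟩
  · exact Or.inl ⟨rfl, rfl⟩
  · exact Or.inr (Or.inl ⟨by rw [resSL_one, st_one], rfl⟩)
  · exact Or.inr (Or.inr (Or.inl ⟨by rw [resSL_one, ps_one], α, h, rfl⟩))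
  · exact Or.inr (Or.inr (Or.inr (Or.inl ⟨by rw [resSL_one, cusp_one], θ, h, rfl⟩)))
  · exact Or.inr (Or.inr (Or.inr (Or.inr (Or.inl ⟨by rw [h.one, ps_one], h2, h⟩))))
  · exact Or.inr (Or.inr (Or.inr (Or.inr (Or.inr ⟨by rw [h.one, cusp_one], h2, θ, h3, h4, h⟩))))

include Q in
theorem irr_SL2_deg_one (hq : 4 ≤ Fintype.card F) {χ : SL(2, F) → ℂ} (hχ : IsIrrCharacter _ χ)
    (hd : χ 1 = 1) : χ = fun _ => 1 := by
  rcases irr_SL2_cases_deg Q hχ with ⟨e, h⟩ | ⟨e, h⟩ | ⟨e, h⟩ | ⟨e, h⟩ | ⟨e, h⟩ | ⟨e, h⟩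
  · exact h
  · exact absurd (by push_cast; linear_combination hd - e) (card_ne_nat (F := F) (n := 1) (by omega))
  · exact absurd (by push_cast; linear_combination hd - e) (card_ne_nat (F := F) (n := 0) (by omega))
  · exact absurd (by push_cast; linear_combination hd - e) (card_ne_nat (F := F) (n := 2) (by omega))
  · exact absurd (by push_cast; linear_combination 2 * hd - 2 * e)
      (card_ne_nat (F := F) (n := 1) (by omega))
  · exact absurd (by push_cast; linear_combination 2 * hd - 2 * e)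
      (card_ne_nat (F := F) (n := 3) (by omega))

include Q in
theorem irr_SL2_deg_q {χ : SL(2, F) → ℂ} (hχ : IsIrrCharacter _ χ)
    (hd : χ 1 = Fintype.card F) : χ = resSL (st 1) := by
  have hq := Fintype.one_lt_card (α := F)
  rcases irr_SL2_cases_deg Q hχ with ⟨e, h⟩ | ⟨e, h⟩ | ⟨e, h⟩ | ⟨e, h⟩ | ⟨e, h⟩ | ⟨e, h⟩
  · exact absurd (by push_cast; linear_combination e - hd) (card_ne_nat (F := F) (n := 1) (by omega))
  · exact h
  · exact absurd (by linear_combination hd - e : (1 : ℂ) = 0) one_ne_zero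
  · exact absurd (by linear_combination e - hd : (1 : ℂ) = 0) one_ne_zero
  · exact absurd (by push_cast; linear_combination 2 * e - 2 * hd)
      (card_ne_nat (F := F) (n := 1) (by omega))
  · exact absurd (by push_cast; linear_combination 2 * e - 2 * hd) (card_add_ne_zero (F := F) 1)

include Q in
theorem irr_SL2_deg_q_add {χ : SL(2, F) → ℂ} (hχ : IsIrrCharacter _ χ)
    (hd : χ 1 = Fintype.card F + 1) : ∃ α, α ^ 2 ≠ 1 ∧ χ = resSL (ps α 1) := by
  have hq := Fintype.one_lt_card (α := F)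
  rcases irr_SL2_cases_deg Q hχ with ⟨e, h⟩ | ⟨e, h⟩ | ⟨e, h⟩ | ⟨e, h⟩ | ⟨e, h⟩ | ⟨e, h⟩
  · exact absurd (by push_cast; linear_combination e - hd) (card_ne_nat (F := F) (n := 0) (by omega))
  · exact absurd (by linear_combination e - hd : (1 : ℂ) = 0) one_ne_zero
  · exact h
  · exact absurd (by linear_combination e - hd : (2 : ℂ) = 0) two_ne_zero
  · exact absurd (by push_cast; linear_combination 2 * e - 2 * hd) (card_add_ne_zero (F := F) 1)
  · exact absurd (by push_cast; linear_combination 2 * e - 2 * hd) (card_add_ne_zero (F := F) 3)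

theorem irr_SL2_deg_q_sub (hq : 4 ≤ Fintype.card F) {χ : SL(2, F) → ℂ} (hχ : IsIrrCharacter _ χ)
    (hd : χ 1 = Fintype.card F - 1) :
    ∃ θ, (θ ^ (Fintype.card F - 1)) ^ 2 ≠ 1 ∧ χ = resSL (cusp Q θ) := by
  rcases irr_SL2_cases_deg Q hχ with ⟨e, h⟩ | ⟨e, h⟩ | ⟨e, h⟩ | ⟨e, h⟩ | ⟨e, h⟩ | ⟨e, h⟩
  · exact absurd (by push_cast; linear_combination e - hd) (card_ne_nat (F := F) (n := 2) (by omega))
  · exact absurd (by linear_combination hd - e : (1 : ℂ) = 0) one_ne_zero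
  · exact absurd (by linear_combination hd - e : (2 : ℂ) = 0) two_ne_zero
  · exact h
  · exact absurd (by push_cast; linear_combination 2 * e - 2 * hd)
      (card_ne_nat (F := F) (n := 3) (by omega))
  · exact absurd (by push_cast; linear_combination 2 * e - 2 * hd)
      (card_ne_nat (F := F) (n := 1) (by omega))

include Q in
theorem irr_SL2_deg_half_add (hq : 4 ≤ Fintype.card F) {χ : SL(2, F) → ℂ}
    (hχ : IsIrrCharacter _ χ) (hd : χ 1 = (Fintype.card F + 1) / 2) :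
    IsHalf (ps (eta F) 1) χ := by
  rcases irr_SL2_cases_deg Q hχ with ⟨e, h⟩ | ⟨e, h⟩ | ⟨e, h⟩ | ⟨e, h⟩ | ⟨e, h⟩ | ⟨e, h⟩
  · exact absurd (by push_cast; linear_combination 2 * e - 2 * hd)
      (card_ne_nat (F := F) (n := 1) (by omega))
  · exact absurd (by push_cast; linear_combination 2 * hd - 2 * e)
      (card_ne_nat (F := F) (n := 1) (by omega))
  · exact absurd (by push_cast; linear_combination 2 * hd - 2 * e) (card_add_ne_zero (F := F) 1)
  · exact absurd (by push_cast; linear_combination 2 * hd - 2 * e)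
      (card_ne_nat (F := F) (n := 3) (by omega))
  · exact h.2
  · exact absurd (by linear_combination e - hd : (1 : ℂ) = 0) one_ne_zero

theorem irr_SL2_deg_half_sub (hq : 4 ≤ Fintype.card F) {χ : SL(2, F) → ℂ}
    (hχ : IsIrrCharacter _ χ) (hd : χ 1 = (Fintype.card F - 1) / 2) :
    ∃ θ, (θ ^ (Fintype.card F - 1)) ^ 2 = 1 ∧ θ ^ (Fintype.card F - 1) ≠ 1 ∧
        IsHalf (cusp Q θ) χ := by
  rcases irr_SL2_cases_deg Q hχ with ⟨e, h⟩ | ⟨e, h⟩ | ⟨e, h⟩ | ⟨e, h⟩ | ⟨e, h⟩ | ⟨e, h⟩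
  · exact absurd (by push_cast; linear_combination 2 * e - 2 * hd)
      (card_ne_nat (F := F) (n := 3) (by omega))
  · exact absurd (by push_cast; linear_combination 2 * hd - 2 * e) (card_add_ne_zero (F := F) 1)
  · exact absurd (by push_cast; linear_combination 2 * hd - 2 * e) (card_add_ne_zero (F := F) 3)
  · exact absurd (by push_cast; linear_combination 2 * hd - 2 * e)
      (card_ne_nat (F := F) (n := 1) (by omega))
  · exact absurd (by linear_combination hd - e : (1 : ℂ) = 0) one_ne_zero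
  · exact h.2

theorem resSL_cusp_eq_of_order_two {θ θ' : MulChar E ℂ}
    (h1 : (θ ^ (Fintype.card F - 1)) ^ 2 = 1) (h2 : θ ^ (Fintype.card F - 1) ≠ 1)
    (h3 : (θ' ^ (Fintype.card F - 1)) ^ 2 = 1) (h4 : θ' ^ (Fintype.card F - 1) ≠ 1) :
    resSL (cusp Q θ) = resSL (cusp Q θ') :=
  resSL_cusp_eq Q (sq_eq_one_of_order_two h1 h2 h3 h4)

theorem card_degree_eq_two {G : Type*} [Group G] (d : ℂ) {χ₁ χ₂ : G → ℂ}
    (h₁ : IsIrrCharacter G χ₁) (h₂ : IsIrrCharacter G χ₂) (hne : χ₁ ≠ χ₂) (e₁ : χ₁ 1 = d)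
    (e₂ : χ₂ 1 = d) (h : ∀ χ, IsIrrCharacter G χ → χ 1 = d → χ = χ₁ ∨ χ = χ₂) :
    Nat.card {χ : IrrCharacter G // (χ : G → ℂ) 1 = d} = 2 := by
  rw [card_degree_eq_of_param d (fun b : Bool => if b then χ₁ else χ₂)]
  · simp
  · rintro (_ | _) <;> simpa
  · rintro (_ | _) <;> simpa
  · rintro (_ | _) (_ | _) e
    · rfl
    · exact absurd (by simpa using e) hne.symm
    · exact absurd (by simpa using e) hne
    · rfl
  · intro χ hχ hd
    rcases h χ hχ hd with rfl | rfl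
    · exact ⟨true, by simp⟩
    · exact ⟨false, by simp⟩

theorem card_degree_eq_one {G : Type*} [Group G] (d : ℂ) {χ₁ : G → ℂ}
    (h₁ : IsIrrCharacter G χ₁) (e₁ : χ₁ 1 = d)
    (h : ∀ χ, IsIrrCharacter G χ → χ 1 = d → χ = χ₁) :
    Nat.card {χ : IrrCharacter G // (χ : G → ℂ) 1 = d} = 1 := by
  rw [card_degree_eq_of_param d (fun _ : Unit => χ₁) (fun _ => h₁) (fun _ => e₁)
    (fun _ _ _ => rfl) (fun χ hχ hd => ⟨(), h χ hχ hd⟩)]
  simp

end Cfsg.Agent.H8Y
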